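import Mathlib

/-!
# The affine group `F₄² ⋊ SL₂(F₄)` and its fibre powers

Every element of the group of matrices of `SL₃(F)`, `|F| = 4`, with last row `(0,0,1)` has order
`1, 2, 3, 4` or `5`, according to the trace of the upper left block; all of these orders occur,
so the group has the same spectrum as `A₆`. The same holds for the fibre powers of the group over
the map to the upper left block, which have unbounded order.
-/

set_option autoImplicit false

namespace Cfsg.Agent.Lib.Linalg.AffineSL24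

open Polynomial Matrix

section Orders

variable {G : Type*} [Group G]

theorem orderOf_mem_of_pow {x : G} (h : x ^ 3 = 1 ∨ x ^ 4 = 1 ∨ x ^ 5 = 1) :
    orderOf x ∈ ({1, 2, 3, 4, 5} : Set ℕ) := by
  have key : ∀ k : ℕ, 0 < k → k ≤ 5 → (k = 1 ∨ k = 2 ∨ k = 3 ∨ k = 4 ∨ k = 5) := by
    intro k _ _
    omega
  have hdvd : orderOf x ∣ 3 ∨ orderOf x ∣ 4 ∨ orderOf x ∣ 5 := by
    rcases h with h | h | h
    · exact Or.inl (orderOf_dvd_of_pow_eq_one h)
    · exact Or.inr (Or.inl (orderOf_dvd_of_pow_eq_one h))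
    · exact Or.inr (Or.inr (orderOf_dvd_of_pow_eq_one h))
  have hpos : 0 < orderOf x := by
    rcases hdvd with h | h | h <;> exact Nat.pos_of_dvd_of_pos h (by norm_num)
  have hle : orderOf x ≤ 5 := by
    rcases hdvd with h | h | h
    · exact (Nat.le_of_dvd (by norm_num) h).trans (by norm_num)
    · exact (Nat.le_of_dvd (by norm_num) h).trans (by norm_num)
    · exact Nat.le_of_dvd (by norm_num) h
  simpa using key _ hpos hle

theorem orderOf_eq_two_of {x : G} (h1 : x ≠ 1) (h2 : x ^ 2 = 1) : orderOf x = 2 :=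
  orderOf_eq_prime h2 h1

theorem orderOf_eq_three_of {x : G} (h1 : x ≠ 1) (h3 : x ^ 3 = 1) : orderOf x = 3 :=
  orderOf_eq_prime h3 h1

theorem orderOf_eq_five_of {x : G} (h1 : x ≠ 1) (h5 : x ^ 5 = 1) : orderOf x = 5 :=
  haveI : Fact (Nat.Prime 5) := ⟨by norm_num⟩
  orderOf_eq_prime h5 h1

theorem orderOf_eq_four_of {x : G} (h2 : x ^ 2 ≠ 1) (h4 : x ^ 4 = 1) : orderOf x = 4 := by
  have := orderOf_eq_prime_pow (p := 2) (n := 1) (x := x) (by simpa using h2) (by simpa using h4)
  simpa using this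

end Orders

section A6

theorem a6_pow : ∀ σ : Equiv.Perm (Fin 6), Equiv.Perm.sign σ = 1 →
    σ ^ 3 = 1 ∨ σ ^ 4 = 1 ∨ σ ^ 5 = 1 := by decide +kernel

/-- The spectrum of `A₆`. -/
theorem range_orderOf_alternating_six :
    Set.range (orderOf : alternatingGroup (Fin 6) → ℕ) = {1, 2, 3, 4, 5} := by
  ext k
  constructor
  · rintro ⟨x, rfl⟩
    rw [← Subgroup.orderOf_coe]
    exact orderOf_mem_of_pow (a6_pow _ (Equiv.Perm.mem_alternatingGroup.1 x.2))
  · intro hk
    have hk' : k = 1 ∨ k = 2 ∨ k = 3 ∨ k = 4 ∨ k = 5 := by simpa using hk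
    have key : ∀ (s : Equiv.Perm (Fin 6)) (k : ℕ), Equiv.Perm.sign s = 1 → orderOf s = k →
        k ∈ Set.range (orderOf : alternatingGroup (Fin 6) → ℕ) := by
      intro s k hs hk
      refine ⟨⟨s, Equiv.Perm.mem_alternatingGroup.2 hs⟩, ?_⟩
      rw [← Subgroup.orderOf_coe]
      exact hk
    rcases hk' with rfl | rfl | rfl | rfl | rfl
    · exact ⟨1, orderOf_one⟩
    · exact key (Equiv.swap 0 1 * Equiv.swap 2 3) 2 (by decide +kernel)
        (orderOf_eq_two_of (by decide +kernel) (by decide +kernel))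
    · exact key (Equiv.swap 0 1 * Equiv.swap 1 2) 3 (by decide +kernel)
        (orderOf_eq_three_of (by decide +kernel) (by decide +kernel))
    · exact key (Equiv.swap 0 1 * Equiv.swap 1 2 * Equiv.swap 2 3 * Equiv.swap 4 5) 4
        (by decide +kernel) (orderOf_eq_four_of (by decide +kernel) (by decide +kernel))
    · exact key (Equiv.swap 0 1 * Equiv.swap 1 2 * Equiv.swap 2 3 * Equiv.swap 3 4) 5
        (by decide +kernel) (orderOf_eq_five_of (by decide +kernel) (by decide +kernel))

end A6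

section Fiber

/-- The fibre power of `G` over a monoid homomorphism. -/
def fiber {G Q : Type*} [Group G] [Monoid Q] (π : G →* Q) (n : ℕ) : Subgroup (Fin n → G) where
  carrier := {f | ∀ i j, π (f i) = π (f j)}
  one_mem' := by
    intro i j
    simp
  mul_mem' := by
    intro a b ha hb i j
    simp [ha i j, hb i j]
  inv_mem' := by
    intro a ha i j
    have h1 : π (a i)⁻¹ * π (a i) = 1 := by rw [← map_mul, inv_mul_cancel, map_one]
    have h2 : π (a j) * π (a j)⁻¹ = 1 := by rw [← map_mul, mul_inv_cancel, map_one]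
    show π (a i)⁻¹ = π (a j)⁻¹
    calc π (a i)⁻¹ = π (a i)⁻¹ * (π (a j) * π (a j)⁻¹) := by rw [h2, mul_one]
      _ = (π (a i)⁻¹ * π (a i)) * π (a j)⁻¹ := by rw [ha i j, mul_assoc]
      _ = π (a j)⁻¹ := by rw [h1, one_mul]

end Fiber

section Matrices

variable {F : Type*} [Field F]

/-- The affine group: matrices in `SL₃(F)` with last row `(0,0,1)`. -/
def aff (F : Type*) [Field F] : Subgroup (SpecialLinearGroup (Fin 3) F) where
  carrier := {M | (M : Matrix (Fin 3) (Fin 3) F) 2 0 = 0 ∧ (M : Matrix (Fin 3) (Fin 3) F) 2 1 = 0 ∧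
    (M : Matrix (Fin 3) (Fin 3) F) 2 2 = 1}
  one_mem' := by simp
  mul_mem' := by
    rintro a b ⟨h0, h1, h2⟩ ⟨h0', h1', h2'⟩
    simp [Matrix.mul_apply, Fin.sum_univ_three, h0', h1', h2', h0, h1, h2]
  inv_mem' := by
    rintro a ⟨h0, h1, h2⟩
    have key : ∀ j, ((a⁻¹ : SpecialLinearGroup (Fin 3) F) : Matrix (Fin 3) (Fin 3) F) 2 j =
        (1 : Matrix (Fin 3) (Fin 3) F) 2 j := by
      intro j
      have h : ((a : Matrix (Fin 3) (Fin 3) F) *
          ((a⁻¹ : SpecialLinearGroup (Fin 3) F) : Matrix (Fin 3) (Fin 3) F)) 2 j =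
          (1 : Matrix (Fin 3) (Fin 3) F) 2 j := by
        have h' := congrArg (fun y : SpecialLinearGroup (Fin 3) F =>
          (y : Matrix (Fin 3) (Fin 3) F) 2 j) (mul_inv_cancel a)
        exact h'
      rw [Matrix.mul_apply, Fin.sum_univ_three, h0, h1, h2] at h
      simpa using h
    refine ⟨?_, ?_, ?_⟩
    · rw [key]; simp
    · rw [key]; simp
    · rw [key]; simp

theorem mem_aff {M : SpecialLinearGroup (Fin 3) F} : M ∈ aff F ↔
    (M : Matrix (Fin 3) (Fin 3) F) 2 0 = 0 ∧ (M : Matrix (Fin 3) (Fin 3) F) 2 1 = 0 ∧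
    (M : Matrix (Fin 3) (Fin 3) F) 2 2 = 1 := Iff.rfl

/-- The upper left block. -/
def block : aff F →* Matrix (Fin 2) (Fin 2) F where
  toFun M := !![(M.1 : Matrix (Fin 3) (Fin 3) F) 0 0, (M.1 : Matrix (Fin 3) (Fin 3) F) 0 1;
    (M.1 : Matrix (Fin 3) (Fin 3) F) 1 0, (M.1 : Matrix (Fin 3) (Fin 3) F) 1 1]
  map_one' := by
    ext i j
    fin_cases i <;> fin_cases j <;> simp
  map_mul' := by
    rintro ⟨a, h0, h1, h2⟩ ⟨b, h0', h1', h2'⟩
    ext i j
    fin_cases i <;> fin_cases j <;>
      simp [Matrix.mul_apply, Fin.sum_univ_three, Fin.sum_univ_two, h0', h1']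

/-- The trace of the upper left block, as a function on the block. -/
def blockTrace (A : Matrix (Fin 2) (Fin 2) F) : F := A 0 0 + A 1 1

theorem blockTrace_block (M : aff F) : blockTrace (block M) =
    (M.1 : Matrix (Fin 3) (Fin 3) F) 0 0 + (M.1 : Matrix (Fin 3) (Fin 3) F) 1 1 := by
  simp [blockTrace, block]

theorem aeval_root (M : Matrix (Fin 3) (Fin 3) F) (h20 : M 2 0 = 0) (h21 : M 2 1 = 0)
    (h22 : M 2 2 = 1) (hdet : M.det = 1) :
    aeval M ((X - 1) * (X ^ 2 - C (M 0 0 + M 1 1) * X + 1) : F[X]) = 0 := by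
  have hd : M 0 0 * M 1 1 - M 0 1 * M 1 0 = 1 := by
    rw [Matrix.det_fin_three, h20, h21, h22] at hdet
    linear_combination hdet
  generalize ht : M 0 0 + M 1 1 = t
  simp only [map_mul, map_sub, map_add, map_pow, aeval_X, aeval_C, map_one]
  rw [Algebra.algebraMap_eq_smul_one, ← ht]
  ext i j
  fin_cases i <;> fin_cases j <;>
    simp [Matrix.mul_apply, pow_two, Fin.sum_univ_three, h20, h21, h22, Matrix.one_apply,
      Matrix.sub_apply, Matrix.add_apply, Matrix.smul_apply]
  · linear_combination (-(M 0 0 - 1)) * hd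
  · linear_combination (-M 0 1) * hd
  · linear_combination (-M 0 2) * hd
  · linear_combination (-M 1 0) * hd
  · linear_combination (-(M 1 1 - 1)) * hd
  · linear_combination (-M 1 2) * hd

variable [Fintype F]

theorem two_eq_zero (hF : Fintype.card F = 4) : (2 : F) = 0 := by
  have h4 : (4 : F) = 0 := by
    have := FiniteField.cast_card_eq_zero F
    rw [hF] at this
    exact_mod_cast this
  have h : (2 : F) ^ 2 = 0 := by linear_combination h4
  exact (pow_eq_zero_iff (by norm_num)).1 h

theorem trichotomy (hF : Fintype.card F = 4) (t : F) : t = 0 ∨ t = 1 ∨ t ^ 2 + t + 1 = 0 := by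
  have h : t ^ 4 = t := by
    have := FiniteField.pow_card t
    rwa [hF] at this
  have h2 : t * ((t - 1) * (t ^ 2 + t + 1)) = 0 := by linear_combination h
  rcases mul_eq_zero.1 h2 with h3 | h3
  · exact Or.inl h3
  rcases mul_eq_zero.1 h3 with h4 | h4
  · exact Or.inr (Or.inl (sub_eq_zero.1 h4))
  · exact Or.inr (Or.inr h4)

theorem exists_omega (hF : Fintype.card F = 4) : ∃ ω : F, ω ^ 2 + ω + 1 = 0 := by
  classical
  obtain ⟨e, -, he⟩ := Finset.exists_mem_notMem_of_card_lt_card (s := {0, 1})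
    (t := (Finset.univ : Finset F)) (by
      have := Finset.card_le_two (a := (0 : F)) (b := 1)
      rw [Finset.card_univ, hF]
      omega)
  simp only [Finset.mem_insert, Finset.mem_singleton, not_or] at he
  rcases trichotomy hF e with h | h | h
  · exact absurd h he.1
  · exact absurd h he.2
  · exact ⟨e, h⟩

theorem pow_of_trace (hF : Fintype.card F = 4) (M : Matrix (Fin 3) (Fin 3) F)
    (h20 : M 2 0 = 0) (h21 : M 2 1 = 0) (h22 : M 2 2 = 1) (hdet : M.det = 1) :
    (M 0 0 + M 1 1 = 0 → M ^ 4 = 1) ∧ (M 0 0 + M 1 1 = 1 → M ^ 3 = 1) ∧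
      ((M 0 0 + M 1 1) ^ 2 + (M 0 0 + M 1 1) + 1 = 0 → M ^ 5 = 1) := by
  have hroot := aeval_root M h20 h21 h22 hdet
  generalize M 0 0 + M 1 1 = t at hroot
  have h2 : (2 : F[X]) = 0 := by
    have := congrArg (C : F →+* F[X]) (two_eq_zero hF)
    rwa [map_zero, map_ofNat] at this
  refine ⟨fun ht => ?_, fun ht => ?_, fun ht => ?_⟩
  · subst ht
    have key : (X ^ 4 - 1 : F[X]) = (X - 1) * (X ^ 2 - C 0 * X + 1) * (X + 1) := by
      simp only [map_zero, zero_mul, sub_zero]
      ring
    have h3 := congrArg (aeval M) key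
    rw [map_mul, hroot, zero_mul] at h3
    simpa [sub_eq_zero] using h3
  · subst ht
    have key : (X ^ 3 - 1 : F[X]) = (X - 1) * (X ^ 2 - C 1 * X + 1) * 1 := by
      simp only [map_one, one_mul]
      linear_combination (X ^ 2 - X) * h2
    have h3 := congrArg (aeval M) key
    rw [map_mul, hroot, zero_mul] at h3
    simpa [sub_eq_zero] using h3
  · have hτ : (C t ^ 2 + C t + 1 : F[X]) = 0 := by
      have := congrArg C ht
      simpa using this
    have key : (X ^ 5 - 1 : F[X]) =
        (X - 1) * (X ^ 2 - C t * X + 1) * (X ^ 2 + (C t + 1) * X + 1) := by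
      linear_combination ((X - 1) * X ^ 2) * hτ - ((X - 1) * X ^ 2) * h2
    have h3 := congrArg (aeval M) key
    rw [map_mul, hroot, zero_mul] at h3
    simpa [sub_eq_zero] using h3

omit [Fintype F] in
theorem coe_aff_pow (M : aff F) (k : ℕ) :
    (((M ^ k : aff F) : SpecialLinearGroup (Fin 3) F) : Matrix (Fin 3) (Fin 3) F) =
      ((M : SpecialLinearGroup (Fin 3) F) : Matrix (Fin 3) (Fin 3) F) ^ k := by
  rw [Subgroup.coe_pow]
  exact Matrix.SpecialLinearGroup.coe_pow _ _

theorem pow_of_blockTrace (hF : Fintype.card F = 4) (M : aff F) :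
    (blockTrace (block M) = 0 → M ^ 4 = 1) ∧ (blockTrace (block M) = 1 → M ^ 3 = 1) ∧
      (blockTrace (block M) ^ 2 + blockTrace (block M) + 1 = 0 → M ^ 5 = 1) := by
  have hM := M.2
  rw [mem_aff] at hM
  obtain ⟨h20, h21, h22⟩ := hM
  have key := pow_of_trace hF (M.1 : Matrix (Fin 3) (Fin 3) F) h20 h21 h22 M.1.2
  rw [blockTrace_block]
  have lift : ∀ k : ℕ, ((M.1 : Matrix (Fin 3) (Fin 3) F) ^ k = 1) → M ^ k = 1 := by
    intro k hk
    apply Subtype.ext
    apply Matrix.SpecialLinearGroup.ext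
    intro i j
    rw [coe_aff_pow, hk]
    rfl
  exact ⟨fun h => lift _ (key.1 h), fun h => lift _ (key.2.1 h), fun h => lift _ (key.2.2 h)⟩

omit [Fintype F] in
theorem exists_aff (A : Matrix (Fin 3) (Fin 3) F) (hdet : A.det = 1) (h20 : A 2 0 = 0)
    (h21 : A 2 1 = 0) (h22 : A 2 2 = 1) :
    ∃ x : aff F, ((x : SpecialLinearGroup (Fin 3) F) : Matrix (Fin 3) (Fin 3) F) = A :=
  ⟨⟨⟨A, hdet⟩, h20, h21, h22⟩, rfl⟩

omit [Fintype F] in
theorem ne_one_of_entry {x : aff F} {i j : Fin 3}
    (h : ((x : SpecialLinearGroup (Fin 3) F) : Matrix (Fin 3) (Fin 3) F) i j ≠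
      (1 : Matrix (Fin 3) (Fin 3) F) i j) : x ≠ 1 := by
  rintro rfl
  exact h rfl

/-- The spectrum of the affine group. -/
theorem range_orderOf_aff (hF : Fintype.card F = 4) :
    Set.range (orderOf : aff F → ℕ) = {1, 2, 3, 4, 5} := by
  have h2 := two_eq_zero hF
  obtain ⟨ω, hω⟩ := exists_omega hF
  ext k
  constructor
  · rintro ⟨x, rfl⟩
    apply orderOf_mem_of_pow
    have key := pow_of_blockTrace hF x
    rcases trichotomy hF (blockTrace (block x)) with h | h | h
    · exact Or.inr (Or.inl (key.1 h))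
    · exact Or.inl (key.2.1 h)
    · exact Or.inr (Or.inr (key.2.2 h))
  · intro hk
    have hk' : k = 1 ∨ k = 2 ∨ k = 3 ∨ k = 4 ∨ k = 5 := by simpa using hk
    -- the element of order four
    obtain ⟨x4, hx4⟩ := exists_aff (F := F) !![1, 1, 0; 0, 1, 1; 0, 0, 1]
      (by simp [Matrix.det_fin_three]) (by simp) (by simp) (by simp)
    have hx4t : blockTrace (block x4) = 0 := by
      rw [blockTrace_block, hx4]
      simp only [Matrix.of_apply, Matrix.cons_val', Matrix.cons_val_zero, Matrix.cons_val_one,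
        Matrix.cons_val_fin_one]
      linear_combination h2
    have hx44 : x4 ^ 4 = 1 := (pow_of_blockTrace hF x4).1 hx4t
    have hx42 : x4 ^ 2 ≠ 1 := by
      apply ne_one_of_entry (i := 0) (j := 2)
      rw [coe_aff_pow, hx4, pow_two]
      simp [Matrix.mul_apply, Fin.sum_univ_three]
    rcases hk' with rfl | rfl | rfl | rfl | rfl
    · exact ⟨1, orderOf_one⟩
    · refine ⟨x4 ^ 2, orderOf_eq_two_of hx42 ?_⟩
      rw [← pow_mul]
      exact hx44
    · obtain ⟨x, hx⟩ := exists_aff (F := F) !![0, -1, 0; 1, 1, 0; 0, 0, 1]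
        (by simp [Matrix.det_fin_three]) (by simp) (by simp) (by simp)
      refine ⟨x, orderOf_eq_three_of (ne_one_of_entry (i := 0) (j := 0) ?_)
        ((pow_of_blockTrace hF x).2.1 ?_)⟩
      · rw [hx]; simp
      · rw [blockTrace_block, hx]; simp
    · exact ⟨x4, orderOf_eq_four_of hx42 hx44⟩
    · obtain ⟨x, hx⟩ := exists_aff (F := F) !![0, -1, 0; 1, ω, 0; 0, 0, 1]
        (by simp [Matrix.det_fin_three]) (by simp) (by simp) (by simp)
      refine ⟨x, orderOf_eq_five_of (ne_one_of_entry (i := 0) (j := 0) ?_)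
        ((pow_of_blockTrace hF x).2.2 ?_)⟩
      · rw [hx]; simp
      · rw [blockTrace_block, hx]; simpa using hω

end Matrices

section Big

/-- Groups of unbounded order with spectrum `{1,2,3,4,5}`. -/
theorem exists_big (F : Type) [Field F] [Fintype F] (hF : Fintype.card F = 4) (N : ℕ) :
    ∃ (H : Type) (_ : Group H) (_ : Fintype H), N < Fintype.card H ∧
      Set.range (orderOf : H → ℕ) = {1, 2, 3, 4, 5} := by
  classical
  have : Finite (fiber (block (F := F)) (N + 1)) := inferInstance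
  refine ⟨fiber (block (F := F)) (N + 1), inferInstance, Fintype.ofFinite _, ?_, ?_⟩
  · obtain ⟨M₀, hM₀⟩ := exists_aff (F := F) !![1, 0, 1; 0, 1, 0; 0, 0, 1]
      (by simp [Matrix.det_fin_three]) (by simp) (by simp) (by simp)
    have hblock : block M₀ = 1 := by
      ext i j
      simp only [block]
      fin_cases i <;> fin_cases j <;> simp [hM₀]
    have hne : M₀ ≠ 1 := by
      apply ne_one_of_entry (i := 0) (j := 2)
      rw [hM₀]
      simp
    let φ : (Fin (N + 1) → Bool) → fiber (block (F := F)) (N + 1) := fun b =>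
      ⟨fun i => if b i then M₀ else 1, by
        intro i j
        by_cases hi : b i <;> by_cases hj : b j <;> simp [hi, hj, hblock]⟩
    have hφ : Function.Injective φ := by
      intro b c hbc
      funext i
      have h := congrFun (congrArg Subtype.val hbc) i
      simp only [φ] at h
      by_cases hi : b i <;> by_cases hj : c i <;> simp_all
    have hcard := Fintype.card_le_of_injective φ hφ
    simp only [Fintype.card_pi, Fintype.card_bool, Finset.prod_const, Finset.card_univ,
      Fintype.card_fin] at hcard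
    have : N < 2 ^ (N + 1) := (Nat.lt_succ_self N).trans (Nat.lt_two_pow_self)
    rw [Fintype.card_eq_nat_card] at hcard ⊢
    exact this.trans_le hcard
  · ext k
    constructor
    · rintro ⟨f, rfl⟩
      apply orderOf_mem_of_pow
      have ht : ∀ i, blockTrace (block (f.1 i)) = blockTrace (block (f.1 0)) := fun i => by
        rw [f.2 i 0]
      have lift : ∀ k : ℕ, (∀ i, (f.1 i) ^ k = 1) → f ^ k = 1 := by
        intro k hk
        apply Subtype.ext
        funext i
        exact hk i
      rcases trichotomy hF (blockTrace (block (f.1 0))) with h | h | h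
      · exact Or.inr (Or.inl (lift _ fun i =>
          (pow_of_blockTrace hF (f.1 i)).1 ((ht i).trans h)))
      · exact Or.inl (lift _ fun i => (pow_of_blockTrace hF (f.1 i)).2.1 ((ht i).trans h))
      · exact Or.inr (Or.inr (lift _ fun i => (pow_of_blockTrace hF (f.1 i)).2.2 (by
          rw [ht i]; exact h)))
    · intro hk
      rw [← range_orderOf_aff hF] at hk
      obtain ⟨x, rfl⟩ := hk
      let g : aff F →* fiber (block (F := F)) (N + 1) :=
        { toFun := fun x => ⟨fun _ => x, fun _ _ => rfl⟩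
          map_one' := rfl
          map_mul' := fun _ _ => rfl }
      have hg : Function.Injective g := by
        intro a b hab
        exact congrFun (congrArg Subtype.val hab) 0
      exact ⟨g x, orderOf_injective g hg x⟩

end Big

end Cfsg.Agent.Lib.Linalg.AffineSL24
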