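import Mathlib
import Cfsg.Agent.Lib.Linalg.SympRep

/-!
# Alternating matrices have even rank
-/

set_option autoImplicit false

namespace Cfsg.Agent.Lib.Linalg.AltRank

open Module Matrix Cfsg.Agent.Lib.Linalg.SympRep

variable {F : Type*} [Field F] {ι : Type*} [Fintype ι] [DecidableEq ι]

/-- The rank of an alternating matrix is even. -/
theorem even_rank_of_alt (M : Matrix ι ι F) (hA : ∀ v : ι → F, v ⬝ᵥ (M *ᵥ v) = 0) : Even M.rank := by
  let B : LinearMap.BilinForm F (ι → F) := Matrix.toLinearMap₂' F M
  have hB : ∀ u v, B u v = u ⬝ᵥ (M *ᵥ v) := fun u v => by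
    simp [B, Matrix.toLinearMap₂'_apply', dotProduct]
  have hAlt : B.IsAlt := fun v => by rw [hB]; exact hA v
  obtain ⟨m, k, b, hb⟩ := exists_isSymplecticBasis B hAlt
  have hker : LinearMap.ker M.mulVecLin = Submodule.span F (Set.range fun j : Fin k => b (.inr j)) := by
    apply le_antisymm
    · intro v hv
      have hv0 : M *ᵥ v = 0 := hv
      have hrad : ∀ u, B v u = 0 := by
        intro u
        rw [Cfsg.Agent.Lib.Linalg.Forms.alt_skew hAlt, hB, hv0]
        simp
      have hexp := expand b v
      rw [hexp]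
      have hzero : ∑ t : Fin m ⊕ Fin m, cc b t v • b (.inl t) = 0 :=
        Finset.sum_eq_zero fun t _ => by rw [cc_of_rad hAlt hb hrad t, zero_smul]
      rw [hzero, zero_add]
      refine Submodule.sum_mem _ fun j _ => Submodule.smul_mem _ _ (Submodule.subset_span ⟨j, rfl⟩)
    · rw [Submodule.span_le]
      rintro _ ⟨j, rfl⟩
      change M *ᵥ (b (.inr j)) = 0
      have h1 : ∀ u, u ⬝ᵥ (M *ᵥ (b (.inr j))) = 0 := by
        intro u
        rw [← hB, Cfsg.Agent.Lib.Linalg.Forms.alt_skew hAlt, hb.rad, neg_zero]
      exact dotProduct_eq_zero_iff.mp (fun w => by rw [dotProduct_comm]; exact h1 w)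
  have hli : LinearIndependent F (fun j : Fin k => b (.inr j)) :=
    b.linearIndependent.comp _ Sum.inr_injective
  have hk : finrank F (LinearMap.ker M.mulVecLin) = k := by
    rw [hker, finrank_span_eq_card hli, Fintype.card_fin]
  have hdim : finrank F (ι → F) = 2 * m + k := by
    rw [Module.finrank_eq_card_basis b]
    simp [two_mul]
  have hrn := LinearMap.finrank_range_add_finrank_ker M.mulVecLin
  rw [hk, hdim] at hrn
  have hrank : M.rank = 2 * m := by
    change finrank F (LinearMap.range M.mulVecLin) = _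
    omega
  rw [hrank]
  exact even_two_mul m

end Cfsg.Agent.Lib.Linalg.AltRank
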