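import Mathlib

/-!
Computing the rank of a matrix from a linearly independent family spanning its columns.
-/

set_option autoImplicit false

namespace Cfsg.Agent.Lib.Linalg.RankCols

/-- If `v` is a linearly independent family spanning the same space as the columns of `M`,
then the rank of `M` is the size of the family. -/
theorem rank_eq_of_cols {F : Type*} [Field F] {m n ι : Type*} [Fintype m] [Fintype n]
    [Fintype ι] [DecidableEq n] (M : Matrix m n F) (v : ι → (m → F)) (hv : LinearIndependent F v)
    (h1 : ∀ j, M.col j ∈ Submodule.span F (Set.range v))
    (h2 : ∀ i, v i ∈ Submodule.span F (Set.range M.col)) :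
    M.rank = Fintype.card ι := by
  rw [Matrix.rank_eq_finrank_span_cols]
  have : Submodule.span F (Set.range M.col) = Submodule.span F (Set.range v) := by
    apply le_antisymm
    · rw [Submodule.span_le]
      rintro _ ⟨j, rfl⟩
      exact h1 j
    · rw [Submodule.span_le]
      rintro _ ⟨i, rfl⟩
      exact h2 i
  rw [this, finrank_span_eq_card hv]

end Cfsg.Agent.Lib.Linalg.RankCols
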