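import Mathlib

/-!
# Killing a normal subgroup from Sylow data

Group-theoretic lemmas: a normal subgroup `K` of a centreless group which normalises every Sylow
`r`-subgroup for `r ∈ {2, 3, 17}` and which contains all Sylow `5`- and `19`-subgroups, when
the Sylow numbers for `5` and `19` are multiples of `17`, is trivial.
-/

set_option autoImplicit false
set_option linter.unusedSectionVars false
set_option linter.style.haveILetI false

namespace Cfsg.Agent.Lib.Linalg.Recog17Kernel

open MulAction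

variable {G : Type*} [Group G] [Finite G]

/-- If a normal subgroup `A` normalises `Q` and meets it trivially then the two commute. -/
theorem commute_of_normalizes {A Q : Subgroup G} (hA : A.Normal)
    (hAQ : ∀ a ∈ A, ∀ q ∈ Q, a * q * a⁻¹ ∈ Q) (hd : Disjoint A Q) {a q : G} (ha : a ∈ A)
    (hq : q ∈ Q) : a * q = q * a := by
  have h1 : a * q * a⁻¹ * q⁻¹ ∈ Q := mul_mem (hAQ a ha q hq) (inv_mem hq)
  have h2 : a * q * a⁻¹ * q⁻¹ ∈ A := by
    have : a * q * a⁻¹ * q⁻¹ = a * (q * a⁻¹ * q⁻¹) := by group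
    rw [this]
    exact mul_mem ha (hA.conj_mem _ (inv_mem ha) _)
  have h3 : a * q * a⁻¹ * q⁻¹ = 1 := by
    have := Subgroup.disjoint_def.mp hd h2 h1
    exact this
  have h4 : a * q = (a * q * a⁻¹ * q⁻¹) * (q * a) := by group
  rw [h4, h3, one_mul]

/-- The conjugates of `Q` by elements which normalise the Sylow subgroup `Q`. -/
theorem conj_mem_of_smul_eq {s : ℕ} [Fact s.Prime] {a : G} (Q : Sylow s G) (h : a • Q = Q) {q : G}
    (hq : q ∈ (Q : Subgroup G)) : a * q * a⁻¹ ∈ (Q : Subgroup G) := by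
  have h1 : a ∈ Subgroup.normalizer ((Q : Subgroup G) : Set G) := Sylow.smul_eq_iff_mem_normalizer.mp h
  exact (Subgroup.mem_normalizer_iff.mp h1 q).mp hq

/-- **Lemma U.** A normal `r`-subgroup of a centreless group whose elements commute with all Sylow
`s`-subgroups, `s ≠ r`, is trivial. -/
theorem eq_bot_of_centralized {r : ℕ} [Fact r.Prime] (hZ : Subgroup.center G = ⊥) {A : Subgroup G}
    (hA : A.Normal) (hr : IsPGroup r A)
    (hc : ∀ s : ℕ, ∀ _ : Fact s.Prime, s ≠ r → ∀ R : Sylow s G, ∀ a ∈ A, ∀ x ∈ (R : Subgroup G),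
      a * x = x * a) : A = ⊥ := by
  by_contra hne
  obtain ⟨S⟩ : Nonempty (Sylow r G) := inferInstance
  letI act : MulAction (S : Subgroup G) A :=
    { smul := fun s a => ⟨(s : G) * a * (s : G)⁻¹, hA.conj_mem _ a.2 _⟩
      one_smul := fun a => Subtype.ext (by
        show ((1 : (S : Subgroup G)) : G) * a * ((1 : (S : Subgroup G)) : G)⁻¹ = a
        simp)
      mul_smul := fun x y a => Subtype.ext (by
        show ((x * y : (S : Subgroup G)) : G) * a * ((x * y : (S : Subgroup G)) : G)⁻¹ =
          (x : G) * ((y : G) * a * (y : G)⁻¹) * (x : G)⁻¹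
        simp only [Subgroup.coe_mul]
        group) }
  have hsmul : ∀ (s : (S : Subgroup G)) (a : A), ((s • a : A) : G) = (s : G) * a * (s : G)⁻¹ :=
    fun _ _ => rfl
  have hcard : r ∣ Nat.card A := by
    haveI : Nontrivial A := (Subgroup.nontrivial_iff_ne_bot A).mpr hne
    obtain ⟨n, hn0, hn⟩ := (hr.nontrivial_iff_card).mp inferInstance
    rw [hn]
    exact dvd_pow_self r (by omega)
  have hfix1 : (1 : A) ∈ fixedPoints (S : Subgroup G) A := by
    intro s
    apply Subtype.ext
    rw [hsmul]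
    simp
  obtain ⟨z, hz, hz1⟩ :=
    S.isPGroup'.exists_fixed_point_of_prime_dvd_card_of_fixed_point A hcard hfix1
  have hzS : ∀ s ∈ (S : Subgroup G), s * (z : G) = z * s := by
    intro s hs
    have := congrArg Subtype.val (hz ⟨s, hs⟩)
    rw [hsmul] at this
    have h2 : s * (z : G) * s⁻¹ = z := this
    calc s * (z : G) = (s * (z : G) * s⁻¹) * s := by group
      _ = z * s := by rw [h2]
  have hcent : (z : G) ∈ Subgroup.center G := by
    let C : Subgroup G := Subgroup.centralizer ({(z : G)} : Set G)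
    have hmem : ∀ x, x ∈ C ↔ x * (z : G) = z * x := by
      intro x
      rw [Subgroup.mem_centralizer_singleton_iff]
    have hidx : C.index = 1 := by
      rw [Nat.eq_one_iff_not_exists_prime_dvd]
      intro s hs hdvd
      haveI : Fact s.Prime := ⟨hs⟩
      by_cases hsr : s = r
      · subst hsr
        have hle : (S : Subgroup G) ≤ C := fun x hx => (hmem x).mpr (hzS x hx)
        exact S.not_dvd_index (hdvd.trans (Subgroup.index_dvd_of_le hle))
      · obtain ⟨R⟩ : Nonempty (Sylow s G) := inferInstance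
        have hle : (R : Subgroup G) ≤ C := fun x hx =>
          (hmem x).mpr (hc s inferInstance hsr R z z.2 x hx).symm
        exact R.not_dvd_index (hdvd.trans (Subgroup.index_dvd_of_le hle))
    have hCtop : C = ⊤ := Subgroup.index_eq_one.mp hidx
    rw [Subgroup.mem_center_iff]
    intro g
    have : g ∈ C := by rw [hCtop]; trivial
    exact (hmem g).mp this
  rw [hZ, Subgroup.mem_bot] at hcent
  exact hz1 (Subtype.ext (by simp [hcent]))

section kernel

variable (K : Subgroup G) [hKn : K.Normal]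

/-- The `r`-part of `K` when `K` normalises every Sylow `r`-subgroup. -/
theorem exists_r_part {r : ℕ} [Fact r.Prime] (h : ∀ P : Sylow r G, ∀ k ∈ K, k • P = P) :
    ∃ A : Subgroup G, A.Normal ∧ IsPGroup r A ∧ A ≤ K ∧
      (∀ x ∈ K, IsPGroup r (Subgroup.zpowers x) → x ∈ A) := by
  obtain ⟨P⟩ : Nonempty (Sylow r G) := inferInstance
  have hmem : ∀ x ∈ K, IsPGroup r (Subgroup.zpowers x) → x ∈ (P : Subgroup G) := by
    intro x hx hxr
    have hfix : P ∈ fixedPoints (Subgroup.zpowers x) (Sylow r G) := by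
      rintro ⟨y, hy⟩
      exact h P y (by
        obtain ⟨n, rfl⟩ := Subgroup.mem_zpowers_iff.mp hy
        exact zpow_mem hx n)
    exact (hxr.sylow_mem_fixedPoints_iff.mp hfix) (Subgroup.mem_zpowers x)
  have hinf : ∀ x ∈ K ⊓ (P : Subgroup G), IsPGroup r (Subgroup.zpowers x) := by
    intro x hx
    have : Subgroup.zpowers x ≤ (P : Subgroup G) :=
      (Subgroup.zpowers_le).mpr hx.2
    exact P.isPGroup'.to_le this
  refine ⟨K ⊓ (P : Subgroup G), ?_, P.isPGroup'.to_inf_right, inf_le_left, fun x hx hxr => ⟨hx, hmem x hx hxr⟩⟩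
  constructor
  intro x hx g
  have hxK : g * x * g⁻¹ ∈ K := hKn.conj_mem x hx.1 g
  refine ⟨hxK, hmem _ hxK ?_⟩
  have h1 := hinf x hx
  have h2 : (Subgroup.zpowers (g * x * g⁻¹)) = (Subgroup.zpowers x).map (MulAut.conj g).toMonoidHom := by
    rw [MonoidHom.map_zpowers]
    rfl
  rw [h2]
  exact h1.map _

end kernel

/-- A `17`-group normal in `G` normalises each Sylow `s`-subgroup for `s ∈ {5, 19}` with the given
Sylow number: the orbit has size `17 ^ i`, is congruent to `1` mod `s`, and is at most `n`. -/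
theorem smul_eq_of_normal_pgroup {s : ℕ} [Fact s.Prime] {A : Subgroup G} (hA : A.Normal) {r : ℕ}
    [Fact r.Prime] (hAr : IsPGroup r A) (harith : ∀ i : ℕ, r ^ i ≡ 1 [MOD s] →
      r ^ i ≤ Nat.card (Sylow s G) → i = 0) (R : Sylow s G) {a : G} (ha : a ∈ A) : a • R = R := by
  classical
  let O : SubMulAction (R : Subgroup G) (Sylow s G) :=
    { carrier := MulAction.orbit A R
      smul_mem' := by
        rintro ⟨u, hu⟩ Q ⟨⟨b, hb⟩, rfl⟩
        -- `u • (b • R) = (u b u⁻¹) • (u • R) = (u b u⁻¹) • R`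
        refine ⟨⟨u * b * u⁻¹, hA.conj_mem b hb u⟩, ?_⟩
        have hu' : u • R = R := Sylow.smul_eq_iff_mem_normalizer.mpr (R.le_normalizer hu)
        show (u * b * u⁻¹) • R = u • (b • R)
        rw [mul_smul, mul_smul]
        congr 2
        rw [inv_smul_eq_iff, hu'] }
  have hcard : ∃ i : ℕ, Nat.card O = r ^ i := by
    obtain ⟨i, hi⟩ := hAr.card_orbit R
    exact ⟨i, hi⟩
  obtain ⟨i, hi⟩ := hcard
  have hRmem : R ∈ O := ⟨1, one_smul _ _⟩
  have hfix : Nat.card (fixedPoints (R : Subgroup G) O) = 1 := by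
    rw [Nat.card_eq_one_iff_unique]
    refine ⟨⟨?_⟩, ⟨⟨⟨R, hRmem⟩, ?_⟩⟩⟩
    · rintro ⟨⟨x, hx⟩, hx'⟩ ⟨⟨y, hy⟩, hy'⟩
      have key : ∀ (z : Sylow s G) (hz : z ∈ O), (⟨z, hz⟩ : O) ∈ fixedPoints (R : Subgroup G) O →
          z = R := by
        intro z hz hz'
        have h1 : z ∈ fixedPoints (R : Subgroup G) (Sylow s G) := by
          intro u
          exact congrArg Subtype.val (hz' u)
        have h2 : (R : Subgroup G) ≤ z := R.isPGroup'.sylow_mem_fixedPoints_iff.mp h1
        exact (Sylow.ext (R.is_maximal' z.isPGroup' h2))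
      have h1 := key x hx hx'
      have h2 := key y hy hy'
      apply Subtype.ext
      apply Subtype.ext
      show x = y
      rw [h1, h2]
    · rintro ⟨u, hu⟩
      apply Subtype.ext
      exact Sylow.smul_eq_iff_mem_normalizer.mpr (R.le_normalizer hu)
  have hmod : Nat.card O ≡ 1 [MOD s] := by
    have := R.isPGroup'.card_modEq_card_fixedPoints O
    rwa [hfix] at this
  have hle : Nat.card O ≤ Nat.card (Sylow s G) := by
    exact Nat.card_le_card_of_injective (fun x : O => (x : Sylow s G)) Subtype.val_injective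
  rw [hi] at hmod hle
  have hi0 := harith i hmod hle
  rw [hi0, pow_zero] at hi
  have hsub : Subsingleton O := (Nat.card_eq_one_iff_unique.mp hi).1
  have hmem : a • R ∈ O := ⟨⟨a, ha⟩, rfl⟩
  exact congrArg Subtype.val (hsub.elim ⟨a • R, hmem⟩ ⟨R, hRmem⟩)

theorem not_dvd_of_le_normalizer {r s : ℕ} [Fact r.Prime] [Fact s.Prime] (R : Sylow s G) (P : Sylow r G)
    (hle : ∀ x ∈ (P : Subgroup G), ∀ y ∈ (R : Subgroup G), x * y = y * x) :
    ¬ r ∣ Nat.card (Sylow s G) := by
  intro hdvd
  rw [Sylow.card_eq_index_normalizer R] at hdvd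
  have h1 : (P : Subgroup G) ≤ Subgroup.normalizer ((R : Subgroup G) : Set G) := by
    intro x hx
    rw [Subgroup.mem_normalizer_iff]
    intro y
    constructor
    · intro hy
      have : x * y * x⁻¹ = y := by rw [hle x hx y hy]; group
      rwa [this]
    · intro hy
      have h2 := hle x hx _ hy
      have h7 : x * (x * y * x⁻¹) = x * y := by
        calc x * (x * y * x⁻¹) = (x * y * x⁻¹) * x := h2
          _ = x * y := by group
      have h5 : x * y * x⁻¹ = y := mul_left_cancel h7
      rwa [h5] at hy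
  exact P.not_dvd_index (hdvd.trans (Subgroup.index_dvd_of_le h1))

/-- **The kernel theorem.** -/
theorem kernel_eq_bot (hZ : Subgroup.center G = ⊥) (K : Subgroup G) [hKn : K.Normal]
    [Fact (Nat.Prime 2)] [Fact (Nat.Prime 3)] [Fact (Nat.Prime 5)] [Fact (Nat.Prime 17)]
    [Fact (Nat.Prime 19)]
    (hprimes : ∀ q : ℕ, q.Prime → q ∣ Nat.card G → q = 2 ∨ q = 3 ∨ q = 5 ∨ q = 17 ∨ q = 19)
    (h2 : ∀ P : Sylow 2 G, ∀ k ∈ K, k • P = P) (h3 : ∀ P : Sylow 3 G, ∀ k ∈ K, k • P = P)
    (h17 : ∀ P : Sylow 17 G, ∀ k ∈ K, k • P = P)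
    (h5n : 5 ∣ Nat.card G → Nat.card (Sylow 5 G) = 136)
    (h19n : 19 ∣ Nat.card G → Nat.card (Sylow 19 G) = 153)
    (h5K : ∀ R : Sylow 5 G, (R : Subgroup G) ≤ K) (h19K : ∀ R : Sylow 19 G, (R : Subgroup G) ≤ K) :
    K = ⊥ := by
  obtain ⟨A2, hA2n, hA2p, hA2K, hA2⟩ := exists_r_part K h2
  obtain ⟨A3, hA3n, hA3p, hA3K, hA3⟩ := exists_r_part K h3
  obtain ⟨A17, hA17n, hA17p, hA17K, hA17⟩ := exists_r_part K h17
  -- Sylow subgroups for primes not dividing `|G|` are trivial
  have htriv : ∀ (s : ℕ) [Fact s.Prime], ¬ s ∣ Nat.card G → ∀ (R : Sylow s G), ∀ x ∈ (R : Subgroup G),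
      x = 1 := by
    intro s _ hs R x hx
    have h1 : Nat.card (R : Subgroup G) = 1 := by
      obtain ⟨n, hn⟩ := IsPGroup.iff_card.mp R.isPGroup'
      rcases n with _ | n
      · simpa using hn
      · exfalso
        apply hs
        rw [← Subgroup.card_mul_index (R : Subgroup G), hn]
        exact Dvd.dvd.mul_right (dvd_pow_self s (by omega)) _
    have := Nat.card_eq_one_iff_unique.mp h1
    have h2 := this.1.elim ⟨x, hx⟩ 1
    exact congrArg Subtype.val h2
  -- `A_r` commutes with Sylow `s`-subgroups (`r ≠ s`, both in `{2, 3, 17}`)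
  have hcomm : ∀ {r s : ℕ} [Fact r.Prime] [Fact s.Prime] {A : Subgroup G}, r ≠ s → A.Normal →
      IsPGroup r A → (∀ a ∈ A, ∀ P : Sylow s G, a • P = P) → ∀ R : Sylow s G, ∀ a ∈ A,
        ∀ x ∈ (R : Subgroup G), a * x = x * a := by
    intro r s _ _ A hrs hA hAp hfix R a ha x hx
    refine commute_of_normalizes hA (fun a ha q hq => conj_mem_of_smul_eq R (hfix a ha R) hq) ?_ ha hx
    exact IsPGroup.disjoint_of_ne r s hrs A R hAp R.isPGroup'
  -- first `A_17 = ⊥`
  have hA17bot : A17 = ⊥ := by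
    refine eq_bot_of_centralized hZ hA17n hA17p ?_
    intro s hsf hs R a ha x hx
    by_cases hsG : s ∣ Nat.card G
    · rcases hprimes s hsf.out hsG with rfl | rfl | rfl | rfl | rfl
      · exact hcomm (by norm_num) hA17n hA17p (fun a ha P => h2 P a (hA17K ha)) R a ha x hx
      · exact hcomm (by norm_num) hA17n hA17p (fun a ha P => h3 P a (hA17K ha)) R a ha x hx
      · refine hcomm (by norm_num) hA17n hA17p (fun a ha P => ?_) R a ha x hx
        refine smul_eq_of_normal_pgroup hA17n hA17p ?_ P ha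
        intro i hi hle
        rw [h5n hsG] at hle
        rcases i with _ | _ | i
        · rfl
        · exfalso
          revert hi
          decide
        · exfalso
          have : 17 ^ (i + 1 + 1) ≥ 17 ^ 2 := Nat.pow_le_pow_right (by norm_num) (by omega)
          omega
      · exact absurd rfl hs
      · refine hcomm (by norm_num) hA17n hA17p (fun a ha P => ?_) R a ha x hx
        refine smul_eq_of_normal_pgroup hA17n hA17p ?_ P ha
        intro i hi hle
        rw [h19n hsG] at hle
        rcases i with _ | _ | i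
        · rfl
        · exfalso
          revert hi
          decide
        · exfalso
          have : 17 ^ (i + 1 + 1) ≥ 17 ^ 2 := Nat.pow_le_pow_right (by norm_num) (by omega)
          omega
    · rw [htriv s hsG R x hx, mul_one, one_mul]
  -- so Sylow `17`-subgroups commute with `K`
  have hK17 : ∀ P : Sylow 17 G, ∀ k ∈ K, ∀ x ∈ (P : Subgroup G), k * x = x * k := by
    intro P k hk x hx
    refine commute_of_normalizes hKn (fun a ha q hq => conj_mem_of_smul_eq P (h17 P a ha) hq) ?_ hk hx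
    rw [Subgroup.disjoint_def]
    intro y hyK hyP
    have h1 : IsPGroup 17 (Subgroup.zpowers y) :=
      P.isPGroup'.to_le (Subgroup.zpowers_le.mpr hyP)
    have := hA17 y hyK h1
    rw [hA17bot] at this
    exact this
  have hno : ∀ {s : ℕ} [Fact s.Prime], (∀ R : Sylow s G, (R : Subgroup G) ≤ K) →
      17 ∣ Nat.card (Sylow s G) → ¬ s ∣ Nat.card G := by
    intro s _ hR hdvd _
    obtain ⟨R⟩ : Nonempty (Sylow s G) := inferInstance
    obtain ⟨P⟩ : Nonempty (Sylow 17 G) := inferInstance
    refine not_dvd_of_le_normalizer R P ?_ hdvd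
    intro x hx y hy
    exact (hK17 P y (hR R hy) x hx).symm
  have hno5 : ¬ 5 ∣ Nat.card G := fun h => hno h5K (by rw [h5n h]; norm_num) h
  have hno19 : ¬ 19 ∣ Nat.card G := fun h => hno h19K (by rw [h19n h]; norm_num) h
  have hprimes' : ∀ q : ℕ, q.Prime → q ∣ Nat.card G → q = 2 ∨ q = 3 ∨ q = 17 := by
    intro q hq hqG
    rcases hprimes q hq hqG with rfl | rfl | rfl | rfl | rfl
    · simp
    · simp
    · exact absurd hqG hno5
    · simp
    · exact absurd hqG hno19
  have hA3bot : A3 = ⊥ := by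
    refine eq_bot_of_centralized hZ hA3n hA3p ?_
    intro s hsf hs R a ha x hx
    by_cases hsG : s ∣ Nat.card G
    · rcases hprimes' s hsf.out hsG with rfl | rfl | rfl
      · exact hcomm (by norm_num) hA3n hA3p (fun a ha P => h2 P a (hA3K ha)) R a ha x hx
      · exact absurd rfl hs
      · exact hcomm (by norm_num) hA3n hA3p (fun a ha P => h17 P a (hA3K ha)) R a ha x hx
    · rw [htriv s hsG R x hx, mul_one, one_mul]
  have hA2bot : A2 = ⊥ := by
    refine eq_bot_of_centralized hZ hA2n hA2p ?_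
    intro s hsf hs R a ha x hx
    by_cases hsG : s ∣ Nat.card G
    · rcases hprimes' s hsf.out hsG with rfl | rfl | rfl
      · exact absurd rfl hs
      · exact hcomm (by norm_num) hA2n hA2p (fun a ha P => h3 P a (hA2K ha)) R a ha x hx
      · exact hcomm (by norm_num) hA2n hA2p (fun a ha P => h17 P a (hA2K ha)) R a ha x hx
    · rw [htriv s hsG R x hx, mul_one, one_mul]
  -- no prime element in `K`
  rw [eq_bot_iff]
  intro x hx
  rw [Subgroup.mem_bot]
  by_contra hx1
  have hord : orderOf x ≠ 1 := fun h => hx1 (orderOf_eq_one_iff.mp h)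
  obtain ⟨q, hq, hqx⟩ := Nat.exists_prime_and_dvd hord
  obtain ⟨m, hm⟩ := hqx
  have hpos : 0 < orderOf x := orderOf_pos x
  have hmpos : 0 < m := by
    rcases Nat.eq_zero_or_pos m with h | h
    · rw [h, mul_zero] at hm; omega
    · exact h
  have hy : orderOf (x ^ m) = q := by
    rw [orderOf_pow' x hmpos.ne', hm, Nat.gcd_eq_right (Dvd.intro_left q rfl)]
    exact Nat.mul_div_cancel _ hmpos
  have hyK : x ^ m ∈ K := pow_mem hx m
  have hqG : q ∣ Nat.card G := by rw [← hy]; exact orderOf_dvd_natCard _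
  have hyp : IsPGroup q (Subgroup.zpowers (x ^ m)) := by
    apply IsPGroup.of_card (n := 1)
    rw [Nat.card_zpowers, hy, pow_one]
  have hy1 : x ^ m ≠ 1 := by
    intro h
    rw [h, orderOf_one] at hy
    exact hq.one_lt.ne hy
  rcases hprimes' q hq hqG with rfl | rfl | rfl
  · have := hA2 _ hyK hyp
    rw [hA2bot] at this
    exact hy1 this
  · have := hA3 _ hyK hyp
    rw [hA3bot] at this
    exact hy1 this
  · have := hA17 _ hyK hyp
    rw [hA17bot] at this
    exact hy1 this

/-- If a surjection induces a bijection on Sylow `r`-subgroups (equal numbers) then its kernel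
normalises every Sylow `r`-subgroup. -/
theorem ker_smul_eq_of_card_eq {H : Type*} [Group H] [Finite H] {r : ℕ} [Fact r.Prime] (f : G →* H)
    (hf : Function.Surjective f) (hcard : Nat.card (Sylow r H) = Nat.card (Sylow r G))
    (P : Sylow r G) (k : G) (hk : k ∈ f.ker) : k • P = P := by
  have hbij : Function.Injective (Sylow.mapSurjective hf : Sylow r G → Sylow r H) := by
    have hsurj := Sylow.mapSurjective_surjective hf r
    exact ((Nat.bijective_iff_surjective_and_card _).mpr ⟨hsurj, hcard.symm⟩).1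
  apply hbij
  apply Sylow.ext
  ext y
  constructor
  · rintro ⟨x, ⟨u, hu, rfl⟩, rfl⟩
    refine ⟨u, hu, ?_⟩
    have : f k = 1 := hk
    simp [this]
  · rintro ⟨u, hu, rfl⟩
    refine ⟨k * u * k⁻¹, ?_, ?_⟩
    · refine ⟨u, hu, rfl⟩
    · have : f k = 1 := hk
      simp [this]

theorem card_sylow_le_of_surjective {H : Type*} [Group H] [Finite H] {r : ℕ} [Fact r.Prime] (f : G →* H)
    (hf : Function.Surjective f) : Nat.card (Sylow r H) ≤ Nat.card (Sylow r G) :=
  Nat.card_le_card_of_surjective _ (Sylow.mapSurjective_surjective hf r)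

/-- A Sylow subgroup for a prime coprime to the order of the target lies in the kernel. -/
theorem sylow_le_ker {H : Type*} [Group H] [Finite H] {s : ℕ} [Fact s.Prime] (f : G →* H)
    (hs : Nat.Coprime s (Nat.card H)) (R : Sylow s G) : (R : Subgroup G) ≤ f.ker := by
  intro u hu
  obtain ⟨k, hk⟩ := IsPGroup.iff_orderOf.mp R.isPGroup' ⟨u, hu⟩
  rw [Subgroup.orderOf_mk] at hk
  have h1 : orderOf (f u) ∣ s ^ k := hk ▸ orderOf_map_dvd f u
  have h2 : orderOf (f u) ∣ Nat.card H := orderOf_dvd_natCard _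
  have h3 : orderOf (f u) = 1 := Nat.eq_one_of_dvd_coprimes (Nat.Coprime.pow_left k hs) h1 h2
  exact orderOf_eq_one_iff.mp h3

end Cfsg.Agent.Lib.Linalg.Recog17Kernel
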