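import Mathlib
import Cfsg.Prelude.Def_LieExceptional
import Cfsg.Agent.Lib.Zass.Basic

/-!
# Sylow numbers of a Zassenhaus group of degree `18`

If `H` is a Zassenhaus group on `18` points with `|H| ∈ {2448, 4896}` then
* `n₂(H) ≥ 153`: a Sylow `2`-subgroup fixes a unique pair of points;
* `n₃(H) = 136` if `H` has an element of order `9` and `n₃(H) ≤ 136`.
-/

set_option autoImplicit false
set_option linter.unusedSectionVars false
set_option linter.style.haveILetI false

namespace Cfsg.Agent.Lib.Linalg.Recog17Num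

open MulAction Cfsg
open scoped Pointwise

variable {H : Type*} [Group H] [Finite H] {Ω : Type*} [Fintype Ω] [DecidableEq Ω] [MulAction H Ω]

theorem card_stab (hZ : IsZassenhausGroup H Ω) (hΩ : Fintype.card Ω = 18) (a : Ω) :
    Nat.card H = 18 * Nat.card (stabilizer H a) := by
  rw [Cfsg.Agent.Lib.Zass.Basic.card_group_eq hZ a, Nat.card_eq_fintype_card, hΩ]

theorem sylow3_number (hZ : IsZassenhausGroup H Ω) (hΩ : Fintype.card Ω = 18)
    (hcard : Nat.card H = 2448 ∨ Nat.card H = 4896) (x : H) (hx : orderOf x = 9)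
    (hle : Nat.card (Sylow 3 H) ≤ 136) : Nat.card (Sylow 3 H) = 136 := by
  classical
  haveI : Fact (Nat.Prime 3) := ⟨Nat.prime_three⟩
  let T : Subgroup H := Subgroup.zpowers x
  have hT : Nat.card T = 9 := by rw [Nat.card_zpowers, hx]
  have hTp : IsPGroup 3 T := IsPGroup.of_card (n := 2) (by rw [hT]; norm_num)
  obtain ⟨P, hTP⟩ := hTp.exists_le_sylow
  obtain ⟨k, hk⟩ := IsPGroup.iff_card.mp P.isPGroup'
  have hPdvd : Nat.card (P : Subgroup H) ∣ Nat.card H := Subgroup.card_subgroup_dvd_card _
  have hk2 : k ≤ 2 := by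
    by_contra hc
    push Not at hc
    have h27 : 3 ^ 3 ∣ Nat.card H := (pow_dvd_pow 3 (by omega : 3 ≤ k)).trans (hk ▸ hPdvd)
    rcases hcard with h | h <;> rw [h] at h27 <;> omega
  have hTP' : T = (P : Subgroup H) := by
    apply Subgroup.eq_of_le_of_card_ge hTP
    rw [hk, hT]
    calc 3 ^ k ≤ 3 ^ 2 := Nat.pow_le_pow_right (by norm_num) hk2
      _ = 9 := by norm_num
  have hnum : Nat.card (Sylow 3 H) = (Subgroup.normalizer (T : Set H)).index := by
    rw [Sylow.card_eq_index_normalizer P, hTP']
    rfl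
  let φ : Subgroup.normalizer (T : Set H) →* MulAut T := T.normalizerMonoidHom
  -- point facts
  obtain ⟨a⟩ : Nonempty Ω := by
    rw [← Fintype.card_pos_iff, hΩ]
    norm_num
  have hstab : Nat.card H = 18 * Nat.card (stabilizer H a) := card_stab hZ hΩ a
  have hmove : ∀ y : H, orderOf y = 9 → y • a ≠ a := by
    intro y hy h
    have hmem : y ∈ stabilizer H a := h
    have h9 : orderOf (⟨y, hmem⟩ : stabilizer H a) = 9 := by
      rw [Subgroup.orderOf_mk, hy]
    have hd := orderOf_dvd_natCard (⟨y, hmem⟩ : stabilizer H a)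
    rw [h9] at hd
    rcases hcard with h | h <;> rw [h] at hstab <;> omega
  have hx1 : x • a ≠ a := hmove x hx
  have hx2 : (x ^ 2) • a ≠ a := hmove _ (by
    rw [Nat.Coprime.orderOf_pow (by rw [hx]; norm_num), hx])
  have hxpow : x ^ 2 • a = x • x • a := by rw [pow_two, mul_smul]
  have hne12 : x • a ≠ x ^ 2 • a := by
    rw [hxpow]
    intro h
    exact hx1 (smul_left_cancel x h).symm
  -- the kernel of `φ`
  have hkerC : ∀ c : φ.ker, (c : H) * x = x * (c : H) := by
    intro c
    have hc : (c : Subgroup.normalizer (T : Set H)) ∈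
        (Subgroup.centralizer (T : Set H)).subgroupOf (Subgroup.normalizer (T : Set H)) := by
      have := Subgroup.normalizerMonoidHom_ker T
      rw [← this]
      exact c.2
    rw [Subgroup.mem_subgroupOf] at hc
    exact (Subgroup.mem_centralizer_iff.mp hc x (Subgroup.mem_zpowers x)).symm
  have hinj : Function.Injective (fun c : φ.ker => (c : H) • a) := by
    intro c₁ c₂ h
    have h1 : ((c₂ : H)⁻¹ * (c₁ : H)) • a = a := by
      rw [mul_smul, inv_smul_eq_iff]
      exact h
    have hcm : ((c₂ : H)⁻¹ * (c₁ : H)) * x = x * ((c₂ : H)⁻¹ * (c₁ : H)) := by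
      have h1 := hkerC c₁
      have h2 := hkerC (c₂⁻¹)
      calc ((c₂ : H)⁻¹ * (c₁ : H)) * x = (c₂ : H)⁻¹ * ((c₁ : H) * x) := by group
        _ = (c₂ : H)⁻¹ * (x * (c₁ : H)) := by rw [h1]
        _ = ((c₂ : H)⁻¹ * x) * (c₁ : H) := by group
        _ = (x * (c₂ : H)⁻¹) * (c₁ : H) := by
            congr 1
        _ = _ := by group
    have h2 : ((c₂ : H)⁻¹ * (c₁ : H)) • (x • a) = x • a := by
      rw [← mul_smul, hcm, mul_smul, h1]
    have hcm2 : ((c₂ : H)⁻¹ * (c₁ : H)) * x ^ 2 = x ^ 2 * ((c₂ : H)⁻¹ * (c₁ : H)) :=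
      (Commute.pow_right (show Commute _ x from hcm) 2)
    have h3 : ((c₂ : H)⁻¹ * (c₁ : H)) • (x ^ 2 • a) = x ^ 2 • a := by
      rw [← mul_smul, hcm2, mul_smul, h1]
    have hone := Cfsg.Agent.Lib.Zass.Basic.eq_one_of_three hZ hx1.symm hne12 hx2.symm h1 h2 h3
    have : (c₁ : H) = c₂ := by
      have h5 := inv_mul_eq_one.mp hone
      exact h5.symm
    apply Subtype.ext
    apply Subtype.ext
    exact this
  have hkerle : Nat.card φ.ker ≤ 18 := by
    have := Nat.card_le_card_of_injective _ hinj
    rwa [Nat.card_eq_fintype_card (α := Ω), hΩ] at this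
  have hxN : x ∈ Subgroup.normalizer (T : Set H) := by
    apply Subgroup.le_normalizer
    exact Subgroup.mem_zpowers x
  have hxker : (⟨x, hxN⟩ : Subgroup.normalizer (T : Set H)) ∈ φ.ker := by
    have := Subgroup.normalizerMonoidHom_ker T
    show _ ∈ T.normalizerMonoidHom.ker
    rw [this, Subgroup.mem_subgroupOf]
    rw [Subgroup.mem_centralizer_iff]
    intro h hh
    obtain ⟨n, rfl⟩ := Subgroup.mem_zpowers_iff.mp hh
    exact ((Commute.refl x).zpow_left n)
  have h9ker : 9 ∣ Nat.card φ.ker := by
    have h1 := orderOf_dvd_natCard (⟨⟨x, hxN⟩, hxker⟩ : φ.ker)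
    rw [Subgroup.orderOf_mk, Subgroup.orderOf_mk, hx] at h1
    exact h1
  have hkerpos : 0 < Nat.card φ.ker := Nat.card_pos
  have hker : Nat.card φ.ker = 9 ∨ Nat.card φ.ker = 18 := by omega
  haveI hcyc : IsCyclic T := inferInstance
  have hAut : Nat.card (MulAut T) = 6 := by
    rw [IsCyclic.card_mulAut, hT]
    decide
  have hrange : Nat.card φ.range ∣ 6 := by
    rw [← hAut]
    exact Subgroup.card_subgroup_dvd_card _
  have hrangeV : Nat.card φ.range = 1 ∨ Nat.card φ.range = 2 ∨ Nat.card φ.range = 3 ∨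
      Nat.card φ.range = 6 := by
    have h1 : Nat.card φ.range ∈ Nat.divisors 6 := Nat.mem_divisors.mpr ⟨hrange, by norm_num⟩
    have h2 : Nat.divisors 6 = {1, 2, 3, 6} := by decide
    rw [h2] at h1
    simpa using h1
  have hNcard : Nat.card (Subgroup.normalizer (T : Set H)) = Nat.card φ.ker * Nat.card φ.range := by
    rw [← Subgroup.card_mul_index φ.ker, Subgroup.index_ker]
  have hGcard : Nat.card H = Nat.card φ.ker * Nat.card φ.range * Nat.card (Sylow 3 H) := by
    rw [hnum, ← hNcard, Subgroup.card_mul_index]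
  have hmod : Nat.card (Sylow 3 H) % 3 = 1 := by
    have := card_sylow_modEq_one 3 H
    exact this
  generalize Nat.card (Sylow 3 H) = n at *
  generalize Nat.card φ.ker = c at *
  generalize Nat.card φ.range = m at *
  rcases hker with rfl | rfl <;> rcases hrangeV with rfl | rfl | rfl | rfl <;>
    rcases hcard with h | h <;> rw [h] at hGcard <;> omega

theorem sylow2_number (hZ : IsZassenhausGroup H Ω) (hΩ : Fintype.card Ω = 18)
    (hcard : Nat.card H = 2448 ∨ Nat.card H = 4896)
    (hle : Nat.card (Sylow 2 H) ≤ 153) : Nat.card (Sylow 2 H) = 153 := by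
  classical
  haveI : Fact (Nat.Prime 2) := ⟨Nat.prime_two⟩
  obtain ⟨S⟩ : Nonempty (Sylow 2 H) := inferInstance
  have hS16 : 16 ≤ Nat.card (S : Subgroup H) := by
    obtain ⟨k, hk⟩ := IsPGroup.iff_card.mp S.isPGroup'
    have hmul := S.card_mul_index
    have hnd := S.not_dvd_index
    by_contra hc
    push Not at hc
    have hk3 : k ≤ 3 := by
      by_contra hk3
      push Not at hk3
      have : 2 ^ 4 ≤ 2 ^ k := Nat.pow_le_pow_right (by norm_num) hk3
      omega
    rw [hk] at hmul
    interval_cases k <;> rcases hcard with h | h <;> rw [h] at hmul <;> omega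
  let α := Set.powersetCard Ω 2
  have hα : Nat.card α = 153 := by
    rw [Set.powersetCard.card, Nat.card_eq_fintype_card, hΩ]
    decide
  obtain ⟨p, hp⟩ := S.isPGroup'.nonempty_fixed_point_of_prime_not_dvd_card α (by rw [hα]; norm_num)
  have huniq : ∀ q : α, q ∈ fixedPoints (S : Subgroup H) α → q = p := by
    intro q hq
    by_contra hne
    obtain ⟨c, hcq, hcp⟩ := (Set.powersetCard.exists_mem_notMem_iff_ne q p).mp hne
    obtain ⟨a, b, hab, hpab⟩ := Finset.card_eq_two.mp p.2
    have hmemp : ∀ (s : (S : Subgroup H)) (y : Ω), y ∈ (p : Finset Ω) → (s : H) • y ∈ (p : Finset Ω) := by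
      intro s y hy
      have h1 : (s • p : α) = p := hp s
      have h2 : (((s : H) • p : α) : Finset Ω) = (s : H) • (p : Finset Ω) := Set.powersetCard.coe_smul
      have h3 : ((s : H) • p : α) = p := h1
      rw [h3] at h2
      rw [h2]
      exact Finset.smul_mem_smul_finset hy
    have hmemq : ∀ (s : (S : Subgroup H)) (y : Ω), y ∈ (q : Finset Ω) → (s : H) • y ∈ (q : Finset Ω) := by
      intro s y hy
      have h1 : (s • q : α) = q := hq s
      have h2 : (((s : H) • q : α) : Finset Ω) = (s : H) • (q : Finset Ω) := Set.powersetCard.coe_smul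
      have h3 : ((s : H) • q : α) = q := h1
      rw [h3] at h2
      rw [h2]
      exact Finset.smul_mem_smul_finset hy
    have ha : a ∈ (p : Finset Ω) := by rw [hpab]; simp
    have hb : b ∈ (p : Finset Ω) := by rw [hpab]; simp
    have hca : a ≠ c := by
      rintro rfl
      exact hcp ha
    have hcb : b ≠ c := by
      rintro rfl
      exact hcp hb
    let f : ↥(S : Subgroup H) → ↥(p : Finset Ω) × ↥(q : Finset Ω) :=
      fun s => (⟨(s : H) • a, hmemp s a ha⟩, ⟨(s : H) • c, hmemq s c hcq⟩)
    have hf : Function.Injective f := by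
      intro s s' h
      have h1 : (s : H) • a = (s' : H) • a := congrArg (fun z => ((z.1 : _) : Ω)) h
      have h2 : (s : H) • c = (s' : H) • c := congrArg (fun z => ((z.2 : _) : Ω)) h
      let t : (S : Subgroup H) := s'⁻¹ * s
      have hta : (t : H) • a = a := by
        show ((s' : H)⁻¹ * (s : H)) • a = a
        rw [mul_smul, inv_smul_eq_iff]
        exact h1
      have htc : (t : H) • c = c := by
        show ((s' : H)⁻¹ * (s : H)) • c = c
        rw [mul_smul, inv_smul_eq_iff]
        exact h2
      have htb : (t : H) • b = b := by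
        have h3 := hmemp t b hb
        rw [hpab, Finset.mem_insert, Finset.mem_singleton] at h3
        rcases h3 with h3 | h3
        · exfalso
          apply hab
          have : (t : H) • b = (t : H) • a := by rw [h3, hta]
          exact (smul_left_cancel _ this).symm
        · exact h3
      have hone : (t : H) = 1 := Cfsg.Agent.Lib.Zass.Basic.eq_one_of_three hZ hab hcb hca hta htb htc
      have ht1 : t = 1 := Subtype.ext hone
      exact (inv_mul_eq_one.mp ht1).symm
    have hle4 := Nat.card_le_card_of_injective f hf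
    rw [Nat.card_prod] at hle4
    have hpc : Nat.card (p : Finset Ω) = 2 := by
      rw [Nat.card_eq_fintype_card, Fintype.card_coe]
      exact p.2
    have hqc : Nat.card (q : Finset Ω) = 2 := by
      rw [Nat.card_eq_fintype_card, Fintype.card_coe]
      exact q.2
    rw [hpc, hqc] at hle4
    omega
  have hnorm : Subgroup.normalizer ((S : Subgroup H) : Set H) ≤ stabilizer H p := by
    intro g hg
    have hfix : g • p ∈ fixedPoints (S : Subgroup H) α := by
      rintro ⟨s, hs⟩
      have hs' : g⁻¹ * s * g ∈ (S : Subgroup H) := by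
        have := (Subgroup.mem_normalizer_iff.mp hg (g⁻¹ * s * g)).mpr (by
          have : g * (g⁻¹ * s * g) * g⁻¹ = s := by group
          rw [this]
          exact hs)
        exact this
      have h1 : (g⁻¹ * s * g) • p = p := hp ⟨_, hs'⟩
      show s • g • p = g • p
      rw [← mul_smul]
      have h2 : s * g = g * (g⁻¹ * s * g) := by group
      rw [h2, mul_smul, h1]
    exact huniq _ hfix
  have hidx : (stabilizer H p).index = 153 := by
    haveI := Set.powersetCard.isPretransitive_of_isMultiplyPretransitive H hZ.2.1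
    rw [index_stabilizer_of_transitive, hα]
  have hdvd := Subgroup.index_dvd_of_le hnorm
  have hnumS : Nat.card (Sylow 2 H) = (Subgroup.normalizer ((S : Subgroup H) : Set H)).index :=
    Sylow.card_eq_index_normalizer S
  rw [hidx, ← hnumS] at hdvd
  have hpos : 0 < Nat.card (Sylow 2 H) := Nat.card_pos
  exact le_antisymm hle (Nat.le_of_dvd hpos hdvd)

end Cfsg.Agent.Lib.Linalg.Recog17Num
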