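import Mathlib
import Cfsg.Prelude.Def_LieExceptional
import Cfsg.Prelude.Def_Solvable
import Cfsg.Agent.Lib.Char.FrobeniusKernel
import Cfsg.Agent.Lib.Perm.SylowNumber

/-!
# An `18`-point permutation group with normal `17`-point subgroups is a Zassenhaus group

`H ≤ Sym(Ω)`, `|Ω| = 18`; for every point `a` a subgroup of order `17` fixes `a` and is normalised by
the stabiliser of `a`.  Then `H` is a Zassenhaus group.
-/

set_option autoImplicit false
set_option linter.unusedSectionVars false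
set_option linter.style.haveILetI false

namespace Cfsg.Agent.Lib.Linalg.Recog17Zass

open MulAction Cfsg Equiv

variable {Ω : Type*} [Fintype Ω] [DecidableEq Ω]

theorem perm_inv_apply_self (f : Perm Ω) (x : Ω) : f⁻¹ (f x) = x := Equiv.symm_apply_apply f x

/-- Orbit structure of a subgroup of order `17` fixing a point of an `18`-element set. -/
theorem orbit_facts (hΩ : Fintype.card Ω = 18) {a : Ω} {I : Subgroup (Perm Ω)} (hI : Nat.card I = 17)
    (hfix : ∀ ξ ∈ I, ξ a = a) :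
    (∀ b c, b ≠ a → c ≠ a → ∃ ξ ∈ I, ξ b = c) ∧ (∀ ξ ∈ I, ∀ b, b ≠ a → ξ b = b → ξ = 1) := by
  classical
  obtain ⟨ξ₀, hξ₀⟩ : ∃ ξ₀ : I, ξ₀ ≠ 1 := by
    haveI : Nontrivial I := Finite.one_lt_card_iff_nontrivial.mp (by rw [hI]; norm_num)
    exact exists_ne 1
  obtain ⟨b₀, hb₀⟩ : ∃ b₀, (ξ₀ : Perm Ω) b₀ ≠ b₀ := by
    by_contra h
    push Not at h
    exact hξ₀ (Subtype.ext (Equiv.ext h))
  have hb₀a : b₀ ≠ a := by
    rintro rfl
    exact hb₀ (hfix _ ξ₀.2)
  have hprime : Nat.Prime 17 := by norm_num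
  have hst0 : Nat.card (stabilizer I b₀) ≠ 17 := by
    intro h
    have htop : stabilizer I b₀ = ⊤ := by
      apply Subgroup.eq_top_of_card_eq
      rw [h, hI]
    have : ξ₀ ∈ stabilizer I b₀ := by rw [htop]; trivial
    exact hb₀ this
  have horb0 : Nat.card (orbit I b₀) * Nat.card (stabilizer I b₀) = 17 := by
    rw [Nat.card_coe_set_eq, ← index_stabilizer, Subgroup.index_mul_card, hI]
  have horbc : Nat.card (orbit I b₀) = 17 := by
    have hd : Nat.card (stabilizer I b₀) ∣ 17 := ⟨_, by rw [mul_comm]; exact horb0.symm⟩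
    rcases (Nat.dvd_prime hprime).mp hd with h | h
    · rwa [h, mul_one] at horb0
    · exact absurd h hst0
  have hcompl : ({a}ᶜ : Set Ω).ncard = 17 := by
    rw [Set.ncard_compl, Set.ncard_singleton, Nat.card_eq_fintype_card, hΩ]
  have hO : orbit I b₀ = ({a}ᶜ : Set Ω) := by
    refine Set.eq_of_subset_of_ncard_le ?_ ?_ (Set.toFinite _)
    · rintro _ ⟨ξ, rfl⟩ h
      have h1 : (ξ : Perm Ω) b₀ = a := h
      have h2 : (ξ : Perm Ω) a = a := hfix _ ξ.2
      exact hb₀a ((ξ : Perm Ω).injective (h1.trans h2.symm))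
    · rw [hcompl, ← Nat.card_coe_set_eq, horbc]
  have hmem : ∀ b, b ≠ a → ∃ ξ : I, (ξ : Perm Ω) b₀ = b := by
    intro b hb
    have : b ∈ orbit I b₀ := by
      rw [hO]
      exact hb
    obtain ⟨ξ, hξ⟩ := this
    exact ⟨ξ, hξ⟩
  refine ⟨?_, ?_⟩
  · intro b c hb hc
    obtain ⟨ξ₁, h₁⟩ := hmem b hb
    obtain ⟨ξ₂, h₂⟩ := hmem c hc
    refine ⟨(ξ₂ * ξ₁⁻¹ : I), (ξ₂ * ξ₁⁻¹ : I).2, ?_⟩
    rw [← h₁, ← h₂]
    show (ξ₂ : Perm Ω) ((ξ₁ : Perm Ω)⁻¹ ((ξ₁ : Perm Ω) b₀)) = _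
    rw [perm_inv_apply_self]
  · intro ξ hξ b hb hξb
    obtain ⟨η, hη⟩ := hmem b hb
    -- conjugate down to `b₀`
    have h1 : ((η⁻¹ * ⟨ξ, hξ⟩ * η : I)) ∈ stabilizer I b₀ := by
      show ((η : Perm Ω)⁻¹ * ξ * (η : Perm Ω)) b₀ = b₀
      rw [Perm.mul_apply, Perm.mul_apply, hη, hξb, ← hη, perm_inv_apply_self]
    have hst1 : Nat.card (stabilizer I b₀) = 1 := by
      have hd : Nat.card (stabilizer I b₀) ∣ 17 := ⟨_, by rw [mul_comm]; exact horb0.symm⟩
      rcases (Nat.dvd_prime hprime).mp hd with h | h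
      · exact h
      · exact absurd h hst0
    have hbot : stabilizer I b₀ = ⊥ := Subgroup.eq_bot_of_card_eq _ hst1
    rw [hbot, Subgroup.mem_bot] at h1
    have h2 : (⟨ξ, hξ⟩ : I) = 1 := by
      have : (⟨ξ, hξ⟩ : I) = η * (η⁻¹ * ⟨ξ, hξ⟩ * η) * η⁻¹ := by group
      rw [this, h1]
      group
    exact congrArg Subtype.val h2

/-- Every point has an order-`17` subgroup fixing it and normalised by its stabiliser. -/
def Has17 (H : Subgroup (Perm Ω)) : Prop :=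
  ∀ a : Ω, ∃ I : Subgroup (Perm Ω), I ≤ H ∧ Nat.card I = 17 ∧ (∀ ξ ∈ I, ξ a = a) ∧
    ∀ h ∈ H, h a = a → ∀ ξ ∈ I, h * ξ * h⁻¹ ∈ I

variable {H : Subgroup (Perm Ω)}

theorem exists_third_point (hΩ : Fintype.card Ω = 18) (a b : Ω) : ∃ c : Ω, c ≠ a ∧ c ≠ b := by
  by_contra hcon
  push Not at hcon
  have hsub : (Finset.univ : Finset Ω) ⊆ {a, b} := by
    intro c _
    by_cases h : c = a
    · simp [h]
    · simp [hcon c h]
  have := Finset.card_le_card hsub
  rw [Finset.card_univ, hΩ] at this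
  have h2 := Finset.card_le_two (a := a) (b := b)
  omega

theorem trans_perm (hΩ : Fintype.card Ω = 18) (h17 : Has17 H) (a c : Ω) :
    ∃ g ∈ H, g a = c := by
  by_cases hac : a = c
  · exact ⟨1, H.one_mem, hac⟩
  · obtain ⟨e, he1, he2⟩ := exists_third_point hΩ a c
    obtain ⟨I, hIH, hIc, hIfix, -⟩ := h17 e
    obtain ⟨ξ, hξ, hξc⟩ := (orbit_facts hΩ hIc hIfix).1 a c he1.symm he2.symm
    exact ⟨ξ, hIH hξ, hξc⟩

theorem two_trans_perm (hΩ : Fintype.card Ω = 18) (h17 : Has17 H) {a b c d : Ω} (hab : a ≠ b)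
    (hcd : c ≠ d) : ∃ g ∈ H, g a = c ∧ g b = d := by
  obtain ⟨g, hg, hga⟩ := trans_perm hΩ h17 a c
  have hgb : g b ≠ c := by
    intro h
    exact hab (g.injective (hga.trans h.symm))
  obtain ⟨I, hIH, hIc, hIfix, -⟩ := h17 c
  obtain ⟨ξ, hξ, hξc⟩ := (orbit_facts hΩ hIc hIfix).1 (g b) d hgb hcd.symm
  refine ⟨ξ * g, H.mul_mem (hIH hξ) hg, ?_, hξc⟩
  rw [Perm.mul_apply, hga, hIfix ξ hξ]

/-- The three-point rule. -/
theorem three_point (hΩ : Fintype.card Ω = 18) (h17 : Has17 H) {g : Perm Ω} (hg : g ∈ H) {a b c : Ω}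
    (hab : a ≠ b) (hbc : b ≠ c) (hac : a ≠ c) (ha : g a = a) (hb : g b = b) (hc : g c = c) : g = 1 := by
  obtain ⟨I, hIH, hIc, hIfix, hInorm⟩ := h17 a
  obtain ⟨htrans, hfree⟩ := orbit_facts hΩ hIc hIfix
  obtain ⟨ξ, hξ, hξc⟩ := htrans b c hab.symm hac.symm
  have hξ1 : ξ ≠ 1 := by
    rintro rfl
    exact hbc hξc
  -- `g ξ g⁻¹ = ξ`
  have hcomm : g * ξ * g⁻¹ = ξ := by
    have h1 : g * ξ * g⁻¹ ∈ I := hInorm g hg ha ξ hξ
    have h2 : ξ⁻¹ * (g * ξ * g⁻¹) = 1 := by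
      refine hfree _ (I.mul_mem (I.inv_mem hξ) h1) b hab.symm ?_
      have hgi : g⁻¹ b = b := by rw [Perm.inv_eq_iff_eq]; exact hb.symm
      simp only [Perm.mul_apply, hgi, hξc, hc]
      rw [← hξc, perm_inv_apply_self]
    exact (inv_inj.mp (mul_eq_one_iff_eq_inv.mp h2)).symm
  haveI : Fact (Nat.Prime 17) := ⟨by norm_num⟩
  refine Equiv.ext fun y => ?_
  by_cases hya : y = a
  · rw [hya, ha]
    rfl
  obtain ⟨η, hη, hηy⟩ := htrans b y hab.symm hya
  obtain ⟨k, rfl⟩ := Subgroup.mem_zpowers_iff.mp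
    (Cfsg.Agent.Lib.Perm.SylowNumber.mem_zpowers_of_card_prime (p := 17) I hIc hξ hξ1 hη)
  have hc2 : g * ξ ^ k = ξ ^ k * g := by
    have hcm : Commute g ξ := by
      show g * ξ = ξ * g
      calc g * ξ = (g * ξ * g⁻¹) * g := by group
        _ = ξ * g := by rw [hcomm]
    exact (hcm.zpow_right k)
  have : g y = y := by
    rw [← hηy]
    have h5 := congrArg (fun f : Perm Ω => f b) hc2
    simp only [Perm.mul_apply, hb] at h5
    exact h5
  exact this

/-- No regular normal subgroup. -/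
theorem no_regular (hΩ : Fintype.card Ω = 18) (h17 : Has17 H) (N : Subgroup H) (hN : N.Normal)
    (htr : IsPretransitive N Ω) (a : Ω) (hst : stabilizer N a = ⊥) : False := by
  haveI : Fact (Nat.Prime 2) := ⟨Nat.prime_two⟩
  haveI : Fact (Nat.Prime 3) := ⟨Nat.prime_three⟩
  have hinj : Function.Injective (fun n : N => n • a) := by
    intro n₁ n₂ h
    have : n₂⁻¹ * n₁ ∈ stabilizer N a := by
      rw [mem_stabilizer_iff, mul_smul, inv_smul_eq_iff]
      exact h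
    rw [hst, Subgroup.mem_bot] at this
    exact (inv_mul_eq_one.mp this).symm
  have hsurj : Function.Surjective (fun n : N => n • a) := fun c => exists_smul_eq N a c
  have hcard : Nat.card N = 18 := by
    rw [Nat.card_congr (Equiv.ofBijective _ ⟨hinj, hsurj⟩), Nat.card_eq_fintype_card, hΩ]
  haveI : Finite N := Nat.finite_of_card_ne_zero (by rw [hcard]; norm_num)
  obtain ⟨u, hu⟩ := exists_prime_orderOf_dvd_card' (G := N) 2 (by rw [hcard]; norm_num)
  obtain ⟨w, hw⟩ := exists_prime_orderOf_dvd_card' (G := N) 3 (by rw [hcard]; norm_num)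
  have hne : ∀ v : N, orderOf v ≠ 1 → v • a ≠ a := by
    intro v hv h
    have : v ∈ stabilizer N a := h
    rw [hst, Subgroup.mem_bot] at this
    rw [this, orderOf_one] at hv
    exact hv rfl
  have hua : u • a ≠ a := hne u (by rw [hu]; norm_num)
  have hwa : w • a ≠ a := hne w (by rw [hw]; norm_num)
  obtain ⟨I, hIH, hIc, hIfix, -⟩ := h17 a
  obtain ⟨ξ, hξ, hξc⟩ := (orbit_facts hΩ hIc hIfix).1 (u • a) (w • a) hua hwa
  let ξ' : H := ⟨ξ, hIH hξ⟩
  let t : N := ⟨ξ' * u * ξ'⁻¹, hN.conj_mem _ u.2 _⟩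
  have hξi : ξ⁻¹ a = a := by rw [Perm.inv_eq_iff_eq]; exact (hIfix ξ hξ).symm
  have ht : t = w := by
    apply hinj
    show ξ ((u : Perm Ω) (ξ⁻¹ a)) = w • a
    rw [hξi]
    exact hξc
  have ht2 : t ^ 2 = 1 := by
    apply Subtype.ext
    show ((ξ' * u * ξ'⁻¹ : H)) ^ 2 = 1
    rw [conj_pow]
    have : (u : H) ^ 2 = 1 := by
      have h3 : u ^ 2 = 1 := by rw [← hu]; exact pow_orderOf_eq_one u
      exact congrArg Subtype.val h3
    rw [this]
    simp
  rw [ht] at ht2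
  have := orderOf_dvd_of_pow_eq_one ht2
  rw [hw] at this
  omega

/-- Two-point stabilisers are non-trivial. -/
theorem exists_two_point (hΩ : Fintype.card Ω = 18) (h17 : Has17 H) :
    ∃ g : H, g ≠ 1 ∧ ∃ a b : Ω, a ≠ b ∧ g • a = a ∧ g • b = b := by
  by_contra hcon
  push Not at hcon
  have hne : Nonempty Ω := by
    rw [← Fintype.card_pos_iff, hΩ]
    norm_num
  obtain ⟨a₀⟩ := hne
  haveI : Finite H := inferInstance
  have hcompl : IsFrobeniusComplement (stabilizer H a₀) := by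
    refine ⟨?_, ?_, ?_⟩
    · intro hbot
      obtain ⟨I, hIH, hIc, hIfix, -⟩ := h17 a₀
      obtain ⟨ξ₀, hξ₀⟩ : ∃ ξ₀ : I, ξ₀ ≠ 1 := by
        haveI : Nontrivial I := Finite.one_lt_card_iff_nontrivial.mp (by rw [hIc]; norm_num)
        exact exists_ne 1
      have hm : (⟨ξ₀, hIH ξ₀.2⟩ : H) ∈ stabilizer H a₀ := hIfix _ ξ₀.2
      rw [hbot, Subgroup.mem_bot] at hm
      have hm' : (ξ₀ : Perm Ω) = 1 := congrArg Subtype.val hm
      exact hξ₀ (Subtype.ext hm')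
    · intro htop
      obtain ⟨c, hc, -⟩ := exists_third_point hΩ a₀ a₀
      obtain ⟨g, hg, hgc⟩ := trans_perm hΩ h17 a₀ c
      have : (⟨g, hg⟩ : H) ∈ stabilizer H a₀ := by rw [htop]; trivial
      have h2 : g a₀ = a₀ := this
      rw [h2] at hgc
      exact hc hgc.symm
    · intro g hg
      rw [eq_bot_iff]
      rintro x ⟨hx1, hx2⟩
      rw [Subgroup.mem_bot]
      by_contra hx
      have hx3 : (MulAut.conj g)⁻¹ • x ∈ stabilizer H a₀ :=
        Subgroup.mem_pointwise_smul_iff_inv_smul_mem.mp hx2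
      have hx4 : (g⁻¹ * x * g) • a₀ = a₀ := by
        have : (MulAut.conj g)⁻¹ • x = g⁻¹ * x * g := by
          simp [MulAut.smul_def, MulAut.conj_symm_apply]
        rw [← this]
        exact hx3
      have hx5 : x • (g • a₀) = g • a₀ := by
        rw [mul_smul, mul_smul, inv_smul_eq_iff] at hx4
        exact hx4
      have hx6 : g • a₀ ≠ a₀ := hg
      exact hcon x hx a₀ (g • a₀) hx6.symm hx1 hx5
  obtain ⟨N, -, hNn, hc⟩ := Cfsg.Agent.Lib.Char.FrobeniusKernel.frobenius_theorem _ hcompl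
  have htr : ∀ c : Ω, ∃ n : N, n • a₀ = c := by
    intro c
    obtain ⟨g, hg, hgc⟩ := trans_perm hΩ h17 a₀ c
    obtain ⟨⟨n, l⟩, hnl⟩ := hc.2 (⟨g, hg⟩ : H)
    refine ⟨n, ?_⟩
    have h1 : ((n : H) * (l : H)) • a₀ = c := by
      have : (n : H) * (l : H) = (⟨g, hg⟩ : H) := hnl
      rw [this]
      exact hgc
    rw [mul_smul, show (l : H) • a₀ = a₀ from l.2] at h1
    exact h1
  refine no_regular hΩ h17 N hNn ⟨fun x y => ?_⟩ a₀ ?_
  · obtain ⟨n₁, h₁⟩ := htr x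
    obtain ⟨n₂, h₂⟩ := htr y
    exact ⟨n₂ * n₁⁻¹, by rw [mul_smul, ← h₁, inv_smul_smul, h₂]⟩
  · rw [eq_bot_iff]
    intro n hn
    rw [Subgroup.mem_bot]
    have h1 : (n : H) ∈ stabilizer H a₀ := hn
    have h2 := Subgroup.disjoint_def.mp hc.disjoint n.2 h1
    exact Subtype.ext h2

/-- **Theorem Z.** -/
theorem isZassenhaus (hΩ : Fintype.card Ω = 18) (h17 : Has17 H) : IsZassenhausGroup H Ω := by
  refine ⟨⟨fun {g₁ g₂} h => Subtype.ext (Equiv.ext h)⟩, ?_, ?_, exists_two_point hΩ h17, ?_⟩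
  · rw [MulAction.is_two_pretransitive_iff]
    intro a b c d hab hcd
    obtain ⟨g, hg, h1, h2⟩ := two_trans_perm hΩ h17 hab hcd
    exact ⟨⟨g, hg⟩, h1, h2⟩
  · intro g a b c hab hbc hac ha hb hc
    exact Subtype.ext (three_point hΩ h17 g.2 hab hbc hac ha hb hc)
  · intro N hN htr
    by_contra hcon
    push Not at hcon
    have hne : Nonempty Ω := by
      rw [← Fintype.card_pos_iff, hΩ]
      norm_num
    obtain ⟨a₀⟩ := hne
    exact no_regular hΩ h17 N hN htr a₀ (hcon a₀)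

end Cfsg.Agent.Lib.Linalg.Recog17Zass
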