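import Mathlib

/-!
Normal form for square-zero operators: a basis `w_i, u_i, z_j` with `T w_i = u_i`, `T u_i = 0`,
`T z_j = 0`.
-/

set_option autoImplicit false
set_option linter.unusedSectionVars false

namespace Cfsg.Agent.Lib.Linalg.SquareZero

open Module

variable {F V : Type*} [Field F] [AddCommGroup V] [Module F V] [FiniteDimensional F V]

theorem range_le_ker_of_sq_zero (T : V →ₗ[F] V) (hT : ∀ v, T (T v) = 0) :
    LinearMap.range T ≤ LinearMap.ker T := by
  rintro _ ⟨v, rfl⟩
  exact hT v

/-- `2 rank T ≤ dim V` for a square-zero operator. -/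
theorem two_rank_le (T : V →ₗ[F] V) (hT : ∀ v, T (T v) = 0) :
    finrank F (LinearMap.range T) + finrank F (LinearMap.range T) ≤ finrank F V := by
  have h1 := LinearMap.finrank_range_add_finrank_ker T
  have h2 := Submodule.finrank_mono (range_le_ker_of_sq_zero T hT)
  omega

/-- The normal form of a square-zero operator. -/
theorem exists_basis (T : V →ₗ[F] V) (hT : ∀ v, T (T v) = 0) (ℓ m : ℕ)
    (hℓ : finrank F (LinearMap.range T) = ℓ) (hn : finrank F V = ℓ + ℓ + m) :
    ∃ B : Basis (Fin ℓ ⊕ Fin ℓ ⊕ Fin m) F V,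
      (∀ i, T (B (Sum.inl i)) = B (Sum.inr (Sum.inl i))) ∧ ∀ i, T (B (Sum.inr i)) = 0 := by
  classical
  set R := LinearMap.range T with hR
  set K := LinearMap.ker T with hK
  have hRK : R ≤ K := range_le_ker_of_sq_zero T hT
  -- basis of the range
  let u : Basis (Fin ℓ) F R := finBasisOfFinrankEq F R hℓ
  have hw : ∀ i, ∃ w : V, T w = (u i : V) := fun i => (u i).2
  choose w hw using hw
  -- a complement of `R` in `K`
  let R' : Submodule F K := R.comap K.subtype
  obtain ⟨Z0, hZ0⟩ := Submodule.exists_isCompl R'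
  have hR'fin : finrank F R' = ℓ := by
    rw [← hℓ]
    exact (Submodule.comapSubtypeEquivOfLe hRK).finrank_eq
  have hKfin : finrank F K + ℓ = finrank F V := by
    have h0 : finrank F R + finrank F K = finrank F V := LinearMap.finrank_range_add_finrank_ker T
    omega
  have hZfin : finrank F Z0 = m := by
    have h0 : finrank F R' + finrank F Z0 = finrank F K := Submodule.finrank_add_eq_of_isCompl hZ0
    omega
  let z : Basis (Fin m) F Z0 := finBasisOfFinrankEq F Z0 hZfin
  -- the family
  let g : Fin ℓ ⊕ Fin ℓ ⊕ Fin m → V :=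
    Sum.elim w (Sum.elim (fun i => (u i : V)) (fun j => ((z j : K) : V)))
  have hTu : ∀ i, T (u i : V) = 0 := fun i => by
    rw [← hw i]
    exact hT _
  have hTz : ∀ j, T ((z j : K) : V) = 0 := fun j => (z j : K).2
  have hli : LinearIndependent F g := by
    rw [Fintype.linearIndependent_iff]
    intro c hc
    simp only [Fintype.sum_sum_type, g, Sum.elim_inl, Sum.elim_inr] at hc
    -- apply `T`
    have h1 : ∑ i, c (Sum.inl i) • (u i : V) = 0 := by
      have := congrArg T hc
      simp only [map_add, map_sum, map_smul, hw, hTu, hTz, smul_zero, Finset.sum_const_zero,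
        add_zero, map_zero] at this
      exact this
    have h1' : ∑ i, c (Sum.inl i) • u i = 0 := by
      apply Subtype.ext
      simpa using h1
    have hc1 : ∀ i, c (Sum.inl i) = 0 :=
      Fintype.linearIndependent_iff.mp u.linearIndependent _ h1'
    simp only [hc1, zero_smul, Finset.sum_const_zero, zero_add] at hc
    -- the two remaining sums lie in complementary subspaces
    set s1 : V := ∑ i, c (Sum.inr (Sum.inl i)) • (u i : V) with hs1
    set s2 : K := ∑ j, c (Sum.inr (Sum.inr j)) • (z j : K) with hs2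
    have hs2V : (s2 : V) = ∑ j, c (Sum.inr (Sum.inr j)) • ((z j : K) : V) := by
      simp [hs2]
    have hs2Z : s2 ∈ Z0 := by
      apply Submodule.sum_mem
      intro j _
      exact Submodule.smul_mem _ _ (z j).2
    have hs1R : s1 ∈ R := by
      apply Submodule.sum_mem
      intro j _
      exact Submodule.smul_mem _ _ (u j).2
    have hs12 : s1 = -(s2 : V) := by
      rw [hs2V]
      exact eq_neg_of_add_eq_zero_left hc
    have hs2R' : s2 ∈ R' := by
      have : (s2 : V) ∈ R := by
        have h3 : (s2 : V) = -s1 := by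
          rw [hs12, neg_neg]
        rw [h3]
        exact R.neg_mem hs1R
      exact this
    have hs20 : s2 = 0 := by
      have := hZ0.disjoint
      rw [Submodule.disjoint_def] at this
      exact this s2 hs2R' hs2Z
    have hs10 : s1 = 0 := by
      rw [hs12, hs20]
      simp
    have hc2 : ∀ i, c (Sum.inr (Sum.inl i)) = 0 := by
      have h4 : ∑ i, c (Sum.inr (Sum.inl i)) • u i = 0 := by
        apply Subtype.ext
        simpa [hs1] using hs10
      exact Fintype.linearIndependent_iff.mp u.linearIndependent _ h4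
    have hc3 : ∀ j, c (Sum.inr (Sum.inr j)) = 0 := by
      have h4 : ∑ j, c (Sum.inr (Sum.inr j)) • z j = 0 := by
        apply Subtype.ext
        apply Subtype.ext
        simpa [hs2] using congrArg (fun x : K => (x : V)) hs20
      exact Fintype.linearIndependent_iff.mp z.linearIndependent _ h4
    rintro (i | i | j)
    · exact hc1 i
    · exact hc2 i
    · exact hc3 j
  have hcard : Fintype.card (Fin ℓ ⊕ Fin ℓ ⊕ Fin m) = finrank F V := by
    simp [hn, add_assoc]
  let B := basisOfLinearIndependentOfCardEqFinrank' g hli hcard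
  have hB : ⇑B = g := coe_basisOfLinearIndependentOfCardEqFinrank' g hli hcard
  refine ⟨B, ?_, ?_⟩
  · intro i
    rw [hB]
    exact hw i
  · rintro (i | j)
    · rw [hB]
      exact hTu i
    · rw [hB]
      exact hTz j

/-- Rescaling the basis of the normal form by `c` on the pair `w_{i₀}, u_{i₀}`. -/
theorem exists_basis_det_eq (T : V →ₗ[F] V) (ℓ m : ℕ) (B : Basis (Fin ℓ ⊕ Fin ℓ ⊕ Fin m) F V)
    (hB1 : ∀ i, T (B (Sum.inl i)) = B (Sum.inr (Sum.inl i)))
    (hB2 : ∀ i, T (B (Sum.inr i)) = 0) (i0 : Fin ℓ) (c : F) (hc : c ≠ 0)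
    (e' : Basis (Fin ℓ ⊕ Fin ℓ ⊕ Fin m) F V)
    (he' : e'.det B * (c * c) = 1) :
    ∃ B' : Basis (Fin ℓ ⊕ Fin ℓ ⊕ Fin m) F V,
      (∀ i, T (B' (Sum.inl i)) = B' (Sum.inr (Sum.inl i))) ∧ (∀ i, T (B' (Sum.inr i)) = 0) ∧
      e'.det B' = 1 := by
  classical
  let w : Fin ℓ ⊕ Fin ℓ ⊕ Fin m → Fˣ := fun x =>
    if x = Sum.inl i0 ∨ x = Sum.inr (Sum.inl i0) then Units.mk0 c hc else 1
  have hw1 : ∀ i, w (Sum.inl i) = w (Sum.inr (Sum.inl i)) := by
    intro i
    simp [w]
  refine ⟨B.unitsSMul w, ?_, ?_, ?_⟩
  · intro i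
    rw [Basis.unitsSMul_apply, Basis.unitsSMul_apply, ← hB1 i, ← hw1 i]
    simp only [Units.smul_def, map_smul]
  · intro i
    rw [Basis.unitsSMul_apply]
    simp only [Units.smul_def, map_smul, hB2, smul_zero]
  · have h1 : e'.det (B.unitsSMul w) = (∏ x, (w x : F)) * e'.det B := by
      have h2 : (B.unitsSMul w : _ → V) = fun x => (w x : F) • B x := by
        funext x
        rw [Basis.unitsSMul_apply]
        rfl
      rw [h2]
      have h3 := (e'.det).toMultilinearMap.map_smul_univ (fun x => (w x : F)) B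
      simpa using h3
    rw [h1]
    have hprod : ∏ x, (w x : F) = c * c := by
      rw [Fintype.prod_sum_type, Fintype.prod_sum_type]
      have ha : ∏ i : Fin ℓ, (w (Sum.inl i) : F) = c := by
        rw [Finset.prod_eq_single i0]
        · simp [w]
        · intro b _ hb
          simp [w, hb]
        · simp
      have hb : ∏ i : Fin ℓ, (w (Sum.inr (Sum.inl i)) : F) = c := by
        rw [Finset.prod_eq_single i0]
        · simp [w]
        · intro b _ hb
          simp [w, hb]
        · simp
      have hc' : ∏ i : Fin m, (w (Sum.inr (Sum.inr i)) : F) = 1 := by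
        apply Finset.prod_eq_one
        intro j _
        simp [w]
      rw [ha, hb, hc', mul_one]
    rw [hprod]
    rw [mul_comm]
    exact he'

end Cfsg.Agent.Lib.Linalg.SquareZero
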